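import Cfsg.Agent.Solv.Core

set_option autoImplicit false

/-! Brodkey's theorem: abelian Sylow `p`-subgroups and `O_p(G) = 1` give two Sylow subgroups meeting trivially. -/

namespace Cfsg.Agent.H91

open Cfsg.Agent.Solv
open scoped Pointwise

variable {G : Type*} [Group G] [Finite G]

/-- Sylow intersections of smallest order: a subgroup normal in both `S` and `T` lies in every Sylow subgroup. -/
theorem le_sylow_of_min (p : ℕ) [Fact p.Prime] (S T : Sylow p G)
    (hmin : ∀ Q : Sylow p G, Nat.card ((S : Subgroup G) ⊓ T : Subgroup G) ≤ Nat.card ((S : Subgroup G) ⊓ Q : Subgroup G))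
    (K : Subgroup G) (hK : K ≤ (S : Subgroup G) ⊓ T)
    (hS : (S : Subgroup G) ≤ Subgroup.normalizer (K : Set G)) (hT : (T : Subgroup G) ≤ Subgroup.normalizer (K : Set G))
    (P : Sylow p G) : K ≤ P := by
  set N := Subgroup.normalizer (K : Set G) with hN
  -- P ∩ N is in a Sylow subgroup of N, conjugate to T in N
  have hPN : IsPGroup p ((P : Subgroup G).subgroupOf N) := P.isPGroup'.comap_subtype
  obtain ⟨R, hR⟩ := hPN.exists_le_sylow
  let T' : Sylow p N := T.subtype hT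
  obtain ⟨x, hx⟩ := MulAction.exists_smul_eq N R T'
  -- (x P x⁻¹) ∩ N ≤ T
  have h1 : (((x : G) • P : Sylow p G) : Subgroup G) ⊓ N ≤ (T : Subgroup G) := by
    rintro y ⟨hy1, hy2⟩
    have hy3 : (x : G)⁻¹ * y * x ∈ (P : Subgroup G) := by
      have : y ∈ (((x : G) • P : Sylow p G) : Subgroup G) := hy1
      rw [Sylow.coe_subgroup_smul, Subgroup.mem_pointwise_smul_iff_inv_smul_mem, MulAut.smul_def, ← map_inv,
        MulAut.conj_apply, inv_inv] at this
      exact this
    have hy4 : (x : G)⁻¹ * y * x ∈ N := N.mul_mem (N.mul_mem (N.inv_mem x.2) hy2) x.2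
    have hy5 : (⟨(x : G)⁻¹ * y * x, hy4⟩ : N) ∈ R := hR (Subgroup.mem_subgroupOf.2 hy3)
    have hy6 : (⟨y, hy2⟩ : N) ∈ (x • R : Sylow p N) := by
      change (⟨y, hy2⟩ : N) ∈ ((x • R : Sylow p N) : Subgroup N)
      rw [Sylow.coe_subgroup_smul, Subgroup.mem_pointwise_smul_iff_inv_smul_mem, MulAut.smul_def, ← map_inv,
        MulAut.conj_apply, inv_inv]
      exact hy5
    rw [hx] at hy6
    exact Subgroup.mem_subgroupOf.1 hy6
  have h2 : (S : Subgroup G) ⊓ (((x : G) • P : Sylow p G) : Subgroup G) ≤ (S : Subgroup G) ⊓ T := by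
    rintro y ⟨hy1, hy2⟩
    exact ⟨hy1, h1 ⟨hy2, hS hy1⟩⟩
  have h3 : (S : Subgroup G) ⊓ (((x : G) • P : Sylow p G) : Subgroup G) = (S : Subgroup G) ⊓ T :=
    Subgroup.eq_of_le_of_card_ge h2 (hmin _)
  intro k hk
  have hk1 : (x : G) * k * (x : G)⁻¹ ∈ K := (Subgroup.mem_normalizer_iff.1 x.2 k).1 hk
  have hk2 : (x : G) * k * (x : G)⁻¹ ∈ (((x : G) • P : Sylow p G) : Subgroup G) := by
    have := hK hk1
    rw [← h3] at this
    exact this.2
  rw [Sylow.coe_subgroup_smul, Subgroup.mem_pointwise_smul_iff_inv_smul_mem, MulAut.smul_def, ← map_inv,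
    MulAut.conj_apply, inv_inv] at hk2
  have h4 : (x : G)⁻¹ * ((x : G) * k * (x : G)⁻¹) * x = k := by group
  rwa [h4] at hk2

theorem exists_conj_inf_eq_bot (p : ℕ) [Fact p.Prime]
    (S : Sylow p G) (hS : IsMulCommutative S) (hOp : Cfsg.pCore p G = ⊥) :
    ∃ g : G, (S : Subgroup G) ⊓ MulAut.conj g • (S : Subgroup G) = ⊥ := by
  classical
  obtain ⟨T, hT⟩ := Finite.exists_min (fun Q : Sylow p G => Nat.card ((S : Subgroup G) ⊓ Q : Subgroup G))
  obtain ⟨g, hg⟩ := MulAction.exists_smul_eq G S T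
  have hT' : (T : Subgroup G) = MulAut.conj g • (S : Subgroup G) := by
    rw [← hg, Sylow.coe_subgroup_smul]
  refine ⟨g, ?_⟩
  rw [← hT']
  have hScomm : ∀ a ∈ (S : Subgroup G), ∀ b ∈ (S : Subgroup G), a * b = b * a := by
    intro a ha b hb
    exact congrArg Subtype.val (mul_comm' (⟨a, ha⟩ : S) ⟨b, hb⟩)
  have hTcomm : ∀ a ∈ (T : Subgroup G), ∀ b ∈ (T : Subgroup G), a * b = b * a := by
    intro a ha b hb
    rw [hT', Subgroup.mem_pointwise_smul_iff_inv_smul_mem, MulAut.smul_def, ← map_inv,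
      MulAut.conj_apply, inv_inv] at ha hb
    have h := hScomm _ ha _ hb
    calc a * b = g * ((g⁻¹ * a * g) * (g⁻¹ * b * g)) * g⁻¹ := by group
      _ = g * ((g⁻¹ * b * g) * (g⁻¹ * a * g)) * g⁻¹ := by rw [h]
      _ = b * a := by group
  have hnorm : ∀ (L : Subgroup G), (∀ a ∈ L, ∀ b ∈ L, a * b = b * a) → (S : Subgroup G) ⊓ T ≤ L →
      L ≤ Subgroup.normalizer (((S : Subgroup G) ⊓ T : Subgroup G) : Set G) := by
    intro L hL hle a ha
    rw [Subgroup.mem_normalizer_iff]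
    intro b
    constructor
    · intro hb
      have : a * b * a⁻¹ = b := by rw [hL a ha b (hle hb)]; group
      rw [this]; exact hb
    · intro hb
      have h1 := hL a ha _ (hle hb)
      have : a * b * a⁻¹ = b := by
        have h2 : a * (a * b * a⁻¹) = (a * b * a⁻¹) * a := h1
        have h3 : a⁻¹ * (a * (a * b * a⁻¹)) = a⁻¹ * ((a * b * a⁻¹) * a) := by rw [h2]
        calc a * b * a⁻¹ = a⁻¹ * (a * (a * b * a⁻¹)) := by group
          _ = a⁻¹ * ((a * b * a⁻¹) * a) := h3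
          _ = b := by group
      rwa [this] at hb
  have hle : (S : Subgroup G) ⊓ T ≤ Cfsg.pCore p G := by
    rw [pCore_eq_iInf_sylow]
    refine le_iInf (fun P => ?_)
    exact le_sylow_of_min p S T (fun Q => hT Q) _ le_rfl (hnorm _ hScomm inf_le_left) (hnorm _ hTcomm inf_le_right) P
  rw [hOp] at hle
  exact le_bot_iff.1 hle

end Cfsg.Agent.H91
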